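import Cfsg.Agent.Palfy.ND1
import Cfsg.Agent.PLocal.ChiefAct

/-! A normal subgroup all of whose nonlinear characters are invariant: nonabelian Sylow subgroup. -/

set_option autoImplicit false

namespace Cfsg.Agent.Palfy

open Subgroup Cfsg.Agent.Char
open scoped commutatorElement

variable {G : Type*} [Group G] [Finite G] {L : Subgroup G} {a b d r k : ℕ} {x : G}

theorem Ext.deg {H : Type*} [Group H] {M : Subgroup G} [M.Normal] {θ : IrrCharacter M} (h : Ext M θ)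
    (f : G →* H) (hf : M ≤ f.ker) (β : IrrCharacter ((inertia M (θ : M → ℂ)).map f)) :
    ∃ χ : IrrCharacter G, charDegree χ.1 =
      (inertia M (θ : M → ℂ)).index * charDegree (θ : M → ℂ) * charDegree β.1 := by
  classical
  have := Fintype.ofFinite G
  obtain ⟨ψ, h1, h2⟩ := h
  have le := le_inertia' M θ
  have i1 : IsIrrCharacter (M.subgroupOf (inertia M (θ : M → ℂ))) fun n => ψ n := by
    convert isIrr_subgroupOf (T := inertia M (θ : M → ℂ)) le θ.2 using 2 with n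
    exact h2 ⟨_, n.2⟩ n.1.2
  have b1 : ∀ n : inertia M (θ : M → ℂ), n.1 ∈ M → β.1 (f.subgroupMap _ n) = β.1 1 := fun n hn =>
    congrArg _ (Subtype.ext (hf hn))
  have i2 := gallagher_isIrr h1 i1 (β.2.comp_surjective _ (f.subgroupMap_surjective _))
    fun n => by rw [b1 n n.2, map_one]
  have b0 : β.1 1 ≠ 0 := by
    rw [← coe_charDegree_irr]; exact Nat.cast_ne_zero.2 (charDegree_pos_of_isIrr β.2).ne'
  have i3 := isIrr_indFun_of_inertia_le le i2 θ.2 le_rfl (by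
    rw [show (fun n : M => _) = β.1 1 • θ.1 from funext fun n => by
      rw [Pi.mul_apply, b1 _ n.2, h2, Pi.smul_apply, smul_eq_mul], classInner_smul_left,
      θ.2.inner_eq_ite θ.2, if_pos rfl, mul_one]
    exact b0)
  refine ⟨⟨_, i3⟩, charDegree_eq_of_one_eq ?_⟩
  change indFun _ _ 1 = _
  rw [indFun_one, Pi.mul_apply, map_one, show ψ 1 = _ from h2 1 (one_mem _), Nat.cast_mul,
    Nat.cast_mul, coe_charDegree_irr, coe_charDegree_irr]
  ring

theorem ext_of_coprime' (M : Subgroup G) [hM : M.Normal] (θ : IrrCharacter M)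
    (h : (Nat.card M).Coprime (M.relIndex (inertia M θ.1))) : Ext M θ := by
  classical
  have := Fintype.ofFinite G
  have le := le_inertia' M θ
  have i := isIrr_subgroupOf (T := inertia M (θ : M → ℂ)) le θ.2
  have c : Nat.card (M.subgroupOf (inertia M (θ : M → ℂ))) = Nat.card M :=
    Nat.card_congr (subgroupOfEquivOfLe le).toEquiv
  obtain ⟨χ, ⟨h1, h2, -⟩, -⟩ := S0867.result _ _ i (fun g n => (mem_inertia' _).1 g.2 ⟨_, n.2⟩) _
    (coe_charDegree_irr ⟨_, i⟩).symm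
      (Nat.Coprime.mul_right (h.symm.coprime_dvd_right (c ▸ detOrder_dvd_card _))
        (h.symm.coprime_dvd_right (c ▸ charDegree_irr_dvd_card ⟨_, i⟩)))
  exact ⟨χ, h1.isCharacter, fun n hn => h2 ⟨⟨n, hn⟩, n.2⟩⟩

omit [Finite G] in
theorem relIndex_mk (M S : Subgroup G) [M.Normal] :
    M.relIndex S = Nat.card (S.map (QuotientGroup.mk' M)) := by
  rw [← relIndex_ker, QuotientGroup.ker_mk']

omit [Finite G] in
theorem mul_pow_mem [L.Normal] {u v : G} {n : ℕ} (hu : u ∈ L) (hv : v ∈ L) (h1 : u ^ n ∈ ⁅L, L⁆)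
    (h2 : v ^ n ∈ ⁅L, L⁆) : (u * v) ^ n ∈ ⁅L, L⁆ := by
  rw [← QuotientGroup.eq_one_iff, QuotientGroup.mk_pow] at h1 h2 ⊢
  rw [QuotientGroup.mk_mul, Commute.mul_pow (mk_comm.1 (commutator_mem_commutator hu hv)), h1, h2,
    mul_one]

omit [Finite G] in
theorem cm_pow_mem [L.Normal] {n : ℕ} (hx : x ∈ L) (h : x ^ n = 1) (g : G) : ⁅g, x⁆ ^ n ∈ ⁅L, L⁆ :=
  mul_pow_mem (Normal.conj_mem inferInstance x hx g) (inv_mem hx)
    (by rw [conj_pow, h, mul_one, mul_inv_cancel]; exact one_mem _)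
    (by rw [inv_pow, h, inv_one]; exact one_mem _)

omit [Finite G] in
theorem min_map {U V : Subgroup G} [V.Normal] (h : IsChiefFactor U V) (K : Subgroup (G ⧸ V))
    (hK : K.Normal) (le : K ≤ U.map (QuotientGroup.mk' V)) :
    K = ⊥ ∨ K = U.map (QuotientGroup.mk' V) := by
  have s := QuotientGroup.mk'_surjective V
  have := h.2.2.2 (K.comap (QuotientGroup.mk' V)) inferInstance
    ((QuotientGroup.ker_mk' V).ge.trans (ker_le_comap _ _)) ((comap_mono le).trans (by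
      rw [comap_map_eq, QuotientGroup.ker_mk', sup_eq_left.2 h.1.le]))
  rw [← map_comap_eq_self_of_surjective s K]
  exact this.imp (fun e => by rw [e, Subgroup.map_eq_bot_iff, QuotientGroup.ker_mk']) fun e => by rw [e]

namespace Hy

variable [L.Normal] (h : Hy L) [hr : Fact r.Prime]
include h

omit [L.Normal] in
theorem one {M : Subgroup G} [M.Normal] (le : M ≤ L) (pM : IsPGroup r (L.map (QuotientGroup.mk' M)))
    (e : M ⊓ ⁅L, L⁆ = ⊥) (hd : DD L d) : ∃ j, d = r ^ j := by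
  obtain ⟨k, hk⟩ := pM.exists_card_eq
  obtain ⟨χ, h1, rfl⟩ := id hd
  have := χ.2.deg_dvd_index_of_comm (coe_charDegree_irr χ).symm M fun a ha b hb =>
    commutatorElement_eq_one_iff_mul_comm.1 (mem_bot.1 (e.le ⟨cm_mem a hb,
      commutator_mem_commutator (le ha) (le hb)⟩))
  rw [← relIndex_mul_index le, relIndex_mk, hk] at this
  exact ((Nat.dvd_prime_pow hr.out).1 ((h.cop _ hd).dvd_of_dvd_mul_right this)).imp fun _ => And.right

theorem pgrp (pL : IsPGroup r L) (ne : ⁅L, L⁆ ≠ ⊥)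
    (mn : ∀ K : Subgroup G, K.Normal → K ≤ ⁅L, L⁆ → K = ⊥ ∨ K = ⁅L, L⁆) (nc : ¬ L ≤ CC L)
    {B : Subgroup G} (h1 : B ≤ L) (h2 : B ≤ CC L) (h3 : B ≤ centralizer B) :
    ∃ d, DD L d ∧ d < B.relIndex L ∧ d ∣ B.relIndex L := by
  have z1 : ⁅L, L⁆ ≤ centralizer L := by
    obtain ⟨z, h1, h2, h3⟩ := exists_cent (E := ⁅L, L⁆) inferInstance
      (pL.to_le (commutator_le_self L)) pL ne
    exact inf_eq_left.1 ((mn _ inferInstance inf_le_left).resolve_left fun e =>
      h2 (mem_bot.1 (e.le ⟨h1, h3⟩)))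
  have z2 : ⁅L, L⁆ ≤ centralizer (⊤ : Subgroup G) := cent_of_St
    (z1.trans (centralizer_le (SetLike.coe_subset_coe.2 (commutator_le_self L)))) fun μ => by
      by_cases c : μ = 1
      · exact fun g _ => mem_St.2 (c ▸ map_one _)
      exact (h.supL le_rfl c).ge.trans (sup_le le_rfl ((le_centralizer_iff.1 z1).trans (cent_le_St _ μ)))
  obtain ⟨ψ, hψ⟩ := exists_charDegree_ne_one (G := L) (by
    by_contra c
    push Not at c
    exact ne (commutator_eq_bot_iff_le_centralizer.2 fun a ha b hb =>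
      congrArg Subtype.val (c ⟨b, hb⟩ ⟨a, ha⟩)))
  obtain ⟨j, hj⟩ := pL.exists_card_eq
  obtain ⟨i, -, hi⟩ := (Nat.dvd_prime_pow hr.out).1 (hj ▸ charDegree_irr_dvd_card ψ)
  have co : (Nat.card L).Coprime L.index := hj ▸ Nat.Coprime.pow_left _ ((h.cop _ (h.dL hψ)).coprime_dvd_left
    (hi ▸ dvd_pow_self r (by rintro rfl; exact hψ hi)))
  obtain ⟨z, hz, nz⟩ := SetLike.not_le_iff_exists.1 nc
  obtain ⟨g, hg⟩ := not_forall.1 (mt mem_CC.2 nz)
  have r1 : (g ^ Nat.card L) ^ L.index = 1 := by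
    rw [← pow_mul, mul_comm, pow_mul]; exact Bad.pw (pow_index_mem L g)
  generalize hρ : g ^ Nat.card L = ρ at r1
  have r2 : ρ ∈ centralizer (L ⊓ CC L : Subgroup G) := fun c hc => (comm_of_cop r1
    (Bad.pw (cm_mem ρ hc.1)) co (z2 (mem_CC.1 hc.2 ρ) ρ (mem_top ρ))).symm
  obtain ⟨w, hw, nw⟩ : ∃ w ∈ L, ⁅ρ, w⁆ ∉ CC L := by
    by_contra c
    push Not at c
    refine hg (mk_comm.2 (mem_centralizer_singleton_iff.1 (mem_of_pows (M := centralizer {(z : G ⧸ ⁅L, L⁆)})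
      co ?_ ?_)))
    · rw [mem_centralizer_singleton_iff, ← QuotientGroup.mk_pow, hρ, ← QuotientGroup.mk_mul,
        comm_of_cop r1 (Bad.pw (cm_mem ρ hz)) co (r2 _ (mem_inf.2 ⟨cm_mem ρ hz, c z hz⟩)).symm,
        QuotientGroup.mk_mul]
    · rw [mem_centralizer_singleton_iff, ← QuotientGroup.mk_pow]
      exact mk_comm.1 (commutator_mem_commutator (pow_index_mem L g) hz)
  have y1 : ⁅ρ, w⁆ ∈ centralizer (B : Set G) := centralizer_le (SetLike.coe_subset_coe.2 (le_inf h1 h2)) (by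
    have := mul_mem r2 (Normal.conj_mem inferInstance _ (inv_mem r2) w)
    simpa [commutatorElement_def, mul_assoc] using this)
  have y2 : B ⊔ zpowers ⁅ρ, w⁆ ≤ centralizer (B ⊔ zpowers ⁅ρ, w⁆ : Subgroup G) :=
    sup_le (le_centralizer_iff.1 (sup_le h3 (zpowers_le.2 y1))) (le_centralizer_iff.1 (sup_le
      (le_centralizer_iff.1 (zpowers_le.2 y1)) (le_centralizer _)))
  have y3 := ψ.2.deg_le_index_of_comm (coe_charDegree_irr ψ).symm ((B ⊔ zpowers ⁅ρ, w⁆).subgroupOf L)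
    fun a ha b hb => Subtype.ext (y2 hb a ha)
  have y4 := y3.trans_lt (index_strictAnti (H := B.subgroupOf L) (lt_of_le_not_ge (comap_mono le_sup_left)
    fun e => nw (h2 (@e ⟨_, cm_mem ρ hw⟩ (mem_sup_right (mem_zpowers _))))))
  refine ⟨_, h.dL hψ, y4, ?_⟩
  obtain ⟨l, -, hl⟩ := (Nat.dvd_prime_pow hr.out).1 (hj ▸ relIndex_dvd_card B L)
  change _ < B.relIndex L at y4
  rw [hi, hl] at *
  exact pow_dvd_pow r ((Nat.pow_lt_pow_iff_right hr.out.one_lt).1 y4).le

theorem alpha [Group.IsSolvable G] {M : Subgroup G} [M.Normal] (le : M ≤ L) (rM : ¬ r ∣ Nat.card M)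
    (pM : IsPGroup r (L.map (QuotientGroup.mk' M))) (hL : x ∈ L) (hx : x ∉ CC L) (ha : x ^ r ^ k = 1)
    (n1 : M ⊓ ⁅L, L⁆ ≠ ⊥) (n2 : ¬ ⁅L, L⁆ ≤ M) : False := by
  have cM : ∀ j, (r ^ j).Coprime (Nat.card M) := fun j => (hr.out.coprime_iff_not_dvd.2 rM).pow_left j
  obtain ⟨j, hj⟩ := pM.exists_card_eq
  have pw : ∀ t ∈ L, t ^ r ^ j ∈ M := fun t ht => by
    rw [← QuotientGroup.eq_one_iff, QuotientGroup.mk_pow, ← hj]
    exact Bad.pw ⟨t, ht, rfl⟩
  set E := M ⊓ ⁅L, L⁆ with hE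
  obtain ⟨μ, hμ⟩ : ∃ μ : E →* ℂˣ, μ ≠ 1 := by
    refine @exists_ne _ (Finite.one_lt_card_iff_nontrivial.1 ?_) _
    rw [card_dual']
    exact Nat.one_lt_iff_ne_zero_and_ne_one.2 ⟨index_ne_zero_of_finite, mt relIndex_eq_one.1
      (Group.IsSolvable.commutator_lt_of_ne_bot n1).not_ge⟩
  have fx : ∀ t ∈ L, t ∈ St (dual E) μ → ∀ i, t ^ r ^ i = 1 → t ∈ CC L := fun t ht h1 i h2 =>
    by_contra fun c => hμ (eq_one_of_fpf (E := E) (fun m hm => h.fpf ht c hm.2 h2 (Bad.pw hm.1) (cM i)) h1)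
  have nA : (St (dual E) μ ⊓ M).Normal := normal_inf (h.supL inf_le_right hμ)
    ((le_inf (commutator_le_right _ _) (commutator_mono le_rfl le)).trans (self_le_St E μ))
  set A := St (dual E) μ ⊓ M with hA
  set T := St (dual E) μ ⊓ L with hT
  have l1 : E ≤ A := le_inf (self_le_St E μ) inf_le_left
  have l2 : A ≤ T := inf_le_inf_left _ le
  have iT : A.relIndex T ∣ r ^ j := by
    rw [show A = M ⊓ T from le_antisymm (le_inf inf_le_right l2) (le_inf (inf_le_right.trans inf_le_left)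
      inf_le_left), inf_relIndex_right, relIndex_mk, ← hj]
    exact card_dvd_of_le (map_mono inf_le_right)
  have cA : (Nat.card A).Coprime (A.relIndex T) :=
    ((cM j).symm.coprime_dvd_left (card_dvd_of_le inf_le_right)).coprime_dvd_right iT
  have i : InvBy (St (dual E) μ) (lin μ).1 := fun s hs g g' e =>
    congrArg Units.val ((congrArg μ (Subtype.ext e)).trans (mem_St_dual.1 hs g))
  obtain ⟨θ, t1, t2⟩ := exists_invBy_above_abelian l1 le_normalizer_of_normal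
    (le_inf ((commutator_le_self A).trans inf_le_right)
      (commutator_mono (inf_le_right.trans le) (inf_le_right.trans le)))
    (S := T) le_normalizer_of_normal le_normalizer_of_normal
    (cA.coprime_dvd_left (relIndex_dvd_card _ _)) (lin μ) (i.mono inf_le_left)
  have e := restrict_eq_of_invBy l1 le_normalizer_of_normal θ (i.mono inf_le_left) t1
  have lA : A ≤ L := inf_le_right.trans le
  let θ' : IrrCharacter (A.subgroupOf L) := ⟨_, isIrr_subgroupOf lA θ.2⟩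
  have eI : inertia (A.subgroupOf L) θ'.1 = T.subgroupOf L := le_antisymm (fun g hg =>
    ⟨mem_St_dual.2 fun n => by
      have : θ.1 ⟨g * n * g⁻¹, _⟩ = θ.1 ⟨n, _⟩ := (mem_inertia' _).1 hg ⟨⟨n, lA (l1 n.2)⟩, l1 n.2⟩
      rw [e n, e ⟨g * n * g⁻¹, Normal.conj_mem inferInstance _ n.2 g.1⟩] at this
      exact Units.ext (mul_left_cancel₀ (Nat.cast_ne_zero.2 t1) this), g.2⟩)
    fun g hg => (mem_inertia' _).2 fun n => t2 g hg _ _ rfl
  have X := (ext_of_coprime' _ θ' (by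
    rw [eI, relIndex_subgroupOf inf_le_right, Nat.card_congr (subgroupOfEquivOfLe lA).toEquiv]
    exact cA)).deg ((QuotientGroup.mk' M).comp L.subtype) fun a ha => (QuotientGroup.eq_one_iff _).2 ha.2
  rw [eI] at X
  have T1 : 1 < (T.subgroupOf L).index := Nat.one_lt_iff_ne_zero_and_ne_one.2 ⟨index_ne_zero_of_finite,
    fun c => hx (fx x hL (relIndex_eq_one.1 c hL).1 k ha)⟩
  have D : ∀ β : IrrCharacter ((T.subgroupOf L).map ((QuotientGroup.mk' M).comp L.subtype)),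
      DD L ((T.subgroupOf L).index * charDegree θ'.1 * charDegree β.1) := fun β => by
    obtain ⟨χ, e⟩ := X β
    refine e ▸ h.dL fun c => T1.ne' (Nat.eq_one_of_mul_eq_one_right
      (Nat.eq_one_of_mul_eq_one_right (e ▸ c)))
  have D1 := D (irrOne _)
  rw [charDegree_irrOne, mul_one] at D1
  have ab : ∀ a ∈ T, ∀ b ∈ T, ⁅a, b⁆ ∈ M := fun a ha b hb => by
    by_contra c
    obtain ⟨β, hβ⟩ := exists_charDegree_ne_one (G := (T.subgroupOf L).map
      ((QuotientGroup.mk' M).comp L.subtype)) ⟨⟨_, ⟨a, ha.2⟩, ha, rfl⟩, ⟨_, ⟨b, hb.2⟩, hb, rfl⟩,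
        fun e => c (mk_comm.2 (congrArg Subtype.val e))⟩
    exact hβ ((mul_eq_left₀ D1.pos.ne').1 (h.nd _ _ D1 (D β) (dvd_mul_right _ _)).symm)
  obtain ⟨V, v1, v2⟩ := PLocal.ChiefAct.exists_chief_below (X := ⁅L, L⁆ ⊔ M) (Y := M)
    (lt_of_le_of_ne le_sup_right fun e => n2 (le_sup_left.trans e.ge))
  have := v2.2.2.1
  have s := QuotientGroup.mk'_surjective V
  have vL : V ≤ L := v2.1.le.trans (sup_le (commutator_le_self L) le)
  have eU : ⁅L.map (QuotientGroup.mk' V), L.map (QuotientGroup.mk' V)⁆ =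
      (⁅L, L⁆ ⊔ M).map (QuotientGroup.mk' V) := by
    rw [Subgroup.map_sup, (Subgroup.map_eq_bot_iff M).2 (v1.trans (QuotientGroup.ker_mk' V).ge), sup_bot_eq, map_commutator]
  have : (L.map (QuotientGroup.mk' V)).Normal := Normal.map inferInstance _ s
  have cc : ∀ t : G, (t : G ⧸ V) ∈ CC (L.map (QuotientGroup.mk' V)) ↔ ∀ g : G, ⁅g, t⁆ ∈ ⁅L, L⁆ ⊔ M :=
    fun t => by
    rw [mem_CC, eU, s.forall]
    refine forall_congr' fun g => ?_
    rw [← QuotientGroup.mk'_apply, ← map_commutatorElement, ← mem_comap, comap_map_eq,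
      QuotientGroup.ker_mk', sup_eq_left.2 v2.1.le]
  obtain ⟨d, d1, d2, d3⟩ := (h.map s ((QuotientGroup.ker_mk' V).le.trans vL)).pgrp (r := r)
    (by
      rintro ⟨_, t, ht, rfl⟩
      exact ⟨j, Subtype.ext ((QuotientGroup.eq_one_iff (t ^ r ^ j)).2 (v1 (pw t ht)))⟩)
    (by rw [eU, Ne, Subgroup.map_eq_bot_iff, QuotientGroup.ker_mk']; exact v2.1.not_ge) (eU ▸ min_map v2)
    (fun c => hx (mem_CC.2 fun g => by
      obtain ⟨u, hu, m, hm, e⟩ := mem_sup_of_normal_right.1 ((cc x).1 (c ⟨x, hL, rfl⟩) g)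
      refine mem_of_pows (cM k) (cm_pow_mem hL ha g) ?_
      rw [← e]
      exact mul_pow_mem (commutator_le_self L hu) (le hm) (pow_mem hu _) (Bad.pw hm ▸ one_mem _)))
    (B := T.map (QuotientGroup.mk' V)) (map_mono inf_le_right) (by
      rintro _ ⟨t, ht, rfl⟩
      refine mem_of_pows (cM j) ?_ ?_
      · rw [← map_pow, show QuotientGroup.mk' V _ = 1 from (QuotientGroup.eq_one_iff _).2 (v1 (pw t ht.2))]
        exact one_mem _
      · exact (cc (t ^ Nat.card M)).2 fun g => mem_sup_left (mem_CC.1 (fx _ (pow_mem ht.2 _)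
          (pow_mem ht.1 _) j (by rw [← pow_mul, mul_comm, pow_mul]; exact Bad.pw (pw t ht.2))) g)) (by
      rintro _ ⟨a, ha, rfl⟩ _ ⟨b, hb, rfl⟩
      exact mk_comm.1 (v1 (ab b hb a ha)))
  have d4 : (T.map (QuotientGroup.mk' V)).relIndex (L.map (QuotientGroup.mk' V)) ∣
      (T.subgroupOf L).index * charDegree θ'.1 := by
    rw [relIndex_map_map, QuotientGroup.ker_mk', sup_eq_left.2 vL]
    exact (relIndex_dvd_of_le_left L le_sup_left).mul_right _
  exact (d2.trans_le (Nat.le_of_dvd D1.pos d4)).ne (h.nd _ _ (d1.of_map s) D1 (d3.trans d4))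

end Hy

end Cfsg.Agent.Palfy
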