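import Cfsg.Agent.Palfy.CaseA
import Cfsg.Agent.Char.RelDeg
import Cfsg.Agent.Char.Zeros

/-! A normal subgroup all of whose nonlinear characters are invariant: basic facts. -/

set_option autoImplicit false

namespace Cfsg.Agent.Palfy

open Subgroup Cfsg.Agent.Char
open scoped commutatorElement

variable {G : Type*} [Group G] {L : Subgroup G} {a b d r k : ℕ} {x : G}

theorem mem_of_pows {M : Subgroup G} (h : a.Coprime b) (ha : x ^ a ∈ M) (hb : x ^ b ∈ M) : x ∈ M := by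
  obtain ⟨u, v, huv⟩ := Nat.isCoprime_iff_coprime.2 h
  have : x = (x ^ a) ^ u * (x ^ b) ^ v := by
    rw [← zpow_natCast, ← zpow_natCast, ← zpow_mul, ← zpow_mul, ← zpow_add, mul_comm (a : ℤ),
      mul_comm (b : ℤ), huv, zpow_one]
  rw [this]
  exact mul_mem (zpow_mem ha u) (zpow_mem hb v)

theorem comm_of_cop' {a x : G} {m n : ℕ} (ha : a ^ n * x = x * a ^ n) (hc : ⁅a, x⁆ ^ m = 1)
    (cop : m.Coprime n) (h : a * ⁅a, x⁆ = ⁅a, x⁆ * a) : a * x = x * a := by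
  have k : ∀ j : ℕ, a ^ j * x * (a ^ j)⁻¹ = ⁅a, x⁆ ^ j * x := fun j => by
    induction j with
    | zero => simp
    | succ j ih =>
      have : Commute a (⁅a, x⁆ ^ j) := Commute.pow_right h j
      rw [pow_succ', show a * a ^ j * x * (a * a ^ j)⁻¹ = a * (a ^ j * x * (a ^ j)⁻¹) * a⁻¹ by group,
        ih, ← mul_assoc, this.eq, pow_succ, commutatorElement_def]
      group
  have e := k n
  rw [ha, mul_inv_cancel_right, eq_comm, mul_eq_right] at e
  have := pow_gcd_eq_one.2 ⟨hc, e⟩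
  rwa [cop.gcd_eq_one, pow_one, commutatorElement_eq_one_iff_mul_comm] at this

theorem cm_mem {N : Subgroup G} [hN : N.Normal] (g : G) (hx : x ∈ N) : ⁅g, x⁆ ∈ N :=
  mul_mem (hN.conj_mem x hx g) (inv_mem hx)

theorem mk_comm {N : Subgroup G} [N.Normal] {g x : G} :
    ⁅g, x⁆ ∈ N ↔ (g : G ⧸ N) * x = x * g := by
  rw [← QuotientGroup.eq_one_iff, ← QuotientGroup.mk'_apply, map_commutatorElement,
    commutatorElement_eq_one_iff_mul_comm]
  rfl

theorem normal_inf {S K : Subgroup G} [L.Normal] [hK : K.Normal] (h : S ⊔ L = ⊤) (c : ⁅L, K⁆ ≤ S) :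
    (S ⊓ K).Normal := ⟨fun n hn g => ⟨by
  obtain ⟨s, hs, l, hl, rfl⟩ := mem_sup_of_normal_right.1 (h.ge (mem_top g))
  have := mul_mem (mul_mem hs (mul_mem (c (commutator_mem_commutator hl hn.2)) hn.1)) (inv_mem hs)
  simpa [commutatorElement_def, mul_assoc] using this, hK.conj_mem n hn.2 g⟩⟩

theorem St_comm_comm {E K : Subgroup G} [hE : E.Normal] [K.Normal] (le : ⁅K, K⁆ ≤ E) {μ : E →* ℂˣ}
    (hK : K ≤ St (dual E) μ) (hx : ∀ a ∈ K, ⁅x, a⁆ ∈ E) :
    x ∈ St (dual ⁅K, K⁆) (μ.comp (inclusion le)) := by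
  have : ⁅K, K⁆ ≤ ((dual E x⁻¹ μ).eqLocus μ).map E.subtype := commutator_le.2 fun a ha b hb => by
    refine ⟨⟨_, le (commutator_mem_commutator ha hb)⟩, (dual_apply E _ μ _).trans ?_, rfl⟩
    let u : E := ⟨_, hx a ha⟩
    let v : E := ⟨_, hx b hb⟩
    have e : (⟨x⁻¹⁻¹ * ⁅a, b⁆ * x⁻¹, hE.conj_mem' _ (le (commutator_mem_commutator ha hb)) _⟩ : E) =
        u * ⟨a * v * a⁻¹, hE.conj_mem _ v.2 _⟩ * ⟨_, le (commutator_mem_commutator ha hb)⟩ *
          (⟨b * u * b⁻¹, hE.conj_mem _ u.2 _⟩ : E)⁻¹ * v⁻¹ := Subtype.ext (by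
      simp only [u, v, commutatorElement_def, coe_mul, coe_inv]
      group)
    rw [e]
    simp only [map_mul, map_inv, mem_St_dual.1 (hK ha), mem_St_dual.1 (hK hb)]
    rw [mul_comm (μ u * μ v), mul_assoc, mul_assoc, mul_mul_mul_comm, mul_inv_cancel, mul_inv_cancel,
      mul_one, mul_one]
  refine mem_St_dual.2 fun n => ?_
  obtain ⟨m, hm, e⟩ := this n.2
  have h := (dual_apply E _ μ _).symm.trans hm
  obtain rfl : m = inclusion le n := Subtype.ext e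
  exact (congrArg μ (Subtype.ext (by simp))).trans h

variable [Finite G]

theorem relIndex_eq_index {S : Subgroup G} [L.Normal] (h : S ⊔ L = ⊤) : S.relIndex L = S.index := by
  have h1 := relIndex_mul_index (inf_le_right : S ⊓ L ≤ L)
  have h2 := relIndex_mul_index (inf_le_left : S ⊓ L ≤ S)
  rw [inf_relIndex_left, ← relIndex_sup_right, h, relIndex_top_right, ← h1, inf_relIndex_right,
    mul_comm] at h2
  exact (Nat.eq_of_mul_eq_mul_right (Nat.pos_of_ne_zero index_ne_zero_of_finite) h2).symm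

omit [Finite G] in
theorem inj_of_fpf {E : Subgroup G} (h : ∀ m ∈ E, x * m = m * x → m = 1) {u v : G} (hu : u ∈ E)
    (hv : v ∈ E) (e : ⁅x, u⁆ = ⁅x, v⁆) : u = v := by
  refine (inv_mul_eq_one.1 (h _ (mul_mem (inv_mem hv) hu) ?_)).symm
  have e' : u * x⁻¹ * u⁻¹ = v * x⁻¹ * v⁻¹ :=
    mul_left_cancel (a := x) (by simpa [commutatorElement_def, mul_assoc] using e)
  calc x * (v⁻¹ * u) = x * v⁻¹ * (u * x⁻¹ * u⁻¹) * u * x := by group
    _ = _ := by rw [e']; group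

theorem surj_of_fpf {E : Subgroup G} [E.Normal] (h : ∀ m ∈ E, x * m = m * x → m = 1) {e : G}
    (he : e ∈ E) : ∃ m ∈ E, ⁅x, m⁆ = e := by
  obtain ⟨m, hm⟩ := Finite.surjective_of_injective (f := fun m : E => (⟨_, cm_mem x m.2⟩ : E))
    (fun u v e => Subtype.ext (inj_of_fpf h u.2 v.2 (congrArg Subtype.val e))) ⟨e, he⟩
  exact ⟨m, m.2, congrArg Subtype.val hm⟩

theorem eq_one_of_fpf {E : Subgroup G} [E.Normal] (h : ∀ m ∈ E, x * m = m * x → m = 1) {μ : E →* ℂˣ}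
    (hx : x ∈ St (dual E) μ) : μ = 1 := MonoidHom.ext fun n => by
  obtain ⟨m, hm, e⟩ := surj_of_fpf h n.2
  exact (congrArg μ (Subtype.ext e.symm)).trans (St_comm hx hm (cm_mem x hm))

/-- the class of `x` in `N` is `x N'` -/
def Cam (N : Subgroup G) (x : N) : Prop := ∀ n : N, n.1 ∈ ⁅N, N⁆ → ∃ c : N, c * x * c⁻¹ = x * n

theorem cam_of_vanish {N : Subgroup G} {x : N}
    (h : ∀ θ : IrrCharacter N, charDegree θ.1 ≠ 1 → θ.1 x = 0) : Cam N x := fun n hn =>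
  isConj_iff.1 (isConj_of_vanish h fun μ => by
    obtain ⟨u, hu, e⟩ := (map_subtype_commutator N).ge hn
    rw [map_mul, show n = u from Subtype.ext e.symm,
      show μ u = 1 from Abelianization.commutator_subset_ker μ hu, mul_one]).symm

omit [Finite G] in
theorem Cam.fpf {N : Subgroup G} {x : N} (h : Cam N x) {m : G} (hm : m ∈ ⁅N, N⁆) (ha : x.1 ^ a = 1)
    (hb : m ^ b = 1) (c : a.Coprime b) (e : x * m = m * x) : m = 1 := by
  obtain ⟨c', hc⟩ := h ⟨m, commutator_le_self N hm⟩ hm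
  have := congrArg (fun y : N => y.1 ^ a) hc
  simp only [coe_mul, coe_inv, conj_pow, ha, mul_one, mul_inv_cancel, Commute.mul_pow e, one_mul] at this
  rw [← pow_one m, ← c.gcd_eq_one]
  exact pow_gcd_eq_one.2 ⟨this.symm, hb⟩

theorem Cam.card_le {N : Subgroup G} {x : N} (h : Cam N x) :
    Nat.card (⁅N, N⁆ : Subgroup G) ≤ (centralizer {x}).index := by
  choose c hc using fun n : (⁅N, N⁆ : Subgroup G) => h (inclusion (commutator_le_self N) n) n.2
  refine Nat.card_le_card_of_injective (fun n => (c n : N ⧸ centralizer {x})) fun n u e => ?_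
  refine inclusion_injective (commutator_le_self N) (mul_left_cancel (a := x) ?_)
  rw [← hc, ← hc, ← mul_inv_cancel_left (c n) (c u), mul_assoc (c n) _ x,
    mem_centralizer_singleton_iff.1 (QuotientGroup.eq.1 e)]
  group

theorem deg_tw {N : Type*} [Group N] [Finite N] {θ : IrrCharacter N} (h : charDegree θ.1 ≠ 1)
    (μ : N →* ℂˣ) : charDegree (fun g => θ.1 g * μ g) ≠ 1 := by
  rw [Ne, charDegree_eq_one_iff (θ.2.mul_linear μ).isCharacter, map_one, Units.val_one, mul_one]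
  exact mt (charDegree_eq_one_iff θ.2.isCharacter).2 h

theorem card_dual' (N : Subgroup G) : Nat.card (N →* ℂˣ) = (⁅N, N⁆).relIndex N := by
  rw [Nat.card_congr Abelianization.lift, card_dual mul_comm, ← map_subtype_commutator, relIndex,
    subgroupOf, comap_map_eq_self_of_injective N.subtype_injective]
  rfl

/-- `d` is the degree of a character over a nonlinear character of `L` -/
def DD (L : Subgroup G) (d : ℕ) : Prop :=
  ∃ χ : IrrCharacter G, ¬ ⁅L, L⁆ ≤ charKer χ.1 ∧ charDegree χ.1 = d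

structure Hy (L : Subgroup G) : Prop where
  ab : commutator G ≤ L
  cop : ∀ d, DD L d → d.Coprime L.index
  nd : ∀ a b, DD L a → DD L b → a ∣ b → a = b

/-- the centre modulo `L'` -/
def CC (L : Subgroup G) [L.Normal] : Subgroup G := (center (G ⧸ ⁅L, L⁆)).comap (QuotientGroup.mk' _)

omit [Finite G] in
theorem mem_CC [L.Normal] : x ∈ CC L ↔ ∀ g : G, ⁅g, x⁆ ∈ ⁅L, L⁆ :=
  ⟨fun h g => mk_comm.2 (mem_center_iff.1 h g), fun h => mem_center_iff.2 fun g => by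
    obtain ⟨g, rfl⟩ := QuotientGroup.mk_surjective g
    exact mk_comm.1 (h g)⟩

omit [Finite G] in
theorem le_CC [L.Normal] : ⁅L, L⁆ ≤ CC L := fun _ h => mem_CC.2 fun g => cm_mem g h

instance [L.Normal] : (CC L).Normal := by unfold CC; infer_instance

omit [Finite G] in
theorem DD.pos (h : DD L d) : 0 < d := h.elim fun χ h => h.2 ▸ charDegree_irr_pos χ

section
variable {Q : Type*} [Group Q] [Finite Q] {f : G →* Q} (hf : Function.Surjective f)
include hf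

theorem DD.of_map (h : DD (L.map f) d) : DD L d := h.elim fun χ h => ⟨inflateIrr f hf χ, by
  rw [le_charKer_inflateIrr, map_commutator]; exact h.1, (charDegree_inflateIrr ..).trans h.2⟩

theorem Hy.map (h : Hy L) (hk : f.ker ≤ L) : Hy (L.map f) :=
  ⟨by rw [commutator_def, ← map_top_of_surjective f hf, ← map_commutator]; exact map_mono h.ab,
    fun d hd => index_map_eq L hf hk ▸ h.cop d (hd.of_map hf),
    fun a b ha hb => h.nd a b (ha.of_map hf) (hb.of_map hf)⟩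

end

theorem ov {N : Subgroup G} [N.Normal] (θ : IrrCharacter N) {n : N} (hn : n.1 ∈ ⁅L, L⁆)
    (ne : θ.1 n ≠ θ.1 1) : ∃ χ : IrrCharacter G, ¬ ⁅L, L⁆ ≤ charKer χ.1 ∧
      (inertia N θ.1).index * charDegree θ.1 ∣ charDegree χ.1 ∧
      ∀ K : Subgroup G, K.Normal → K ≤ N → K.subgroupOf N ≤ charKer θ.1 → K ≤ charKer χ.1 := by
  classical
  have := Fintype.ofFinite G
  obtain ⟨χ, h1, h2⟩ := exists_irr_over N θ.2
  obtain ⟨e, -, -, he⟩ := exists_charDegree_eq_of_over N h1 θ.2 h2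
  exact ⟨⟨χ, h1⟩, fun c => ne ((mem_charKer_irr θ).1
    (le_charKer_restrict _ h1.isCharacter θ.2 h2 c hn)), he ▸ mul_assoc e _ _ ▸ dvd_mul_left _ _,
    fun K _ le => le_charKer_of_over K le h1 θ.2 h2⟩

namespace Hy

variable [L.Normal] (h : Hy L)
include h

omit [L.Normal] in
theorem sup {N : Subgroup G} [N.Normal] (θ : IrrCharacter N) {n : N} (hn : n.1 ∈ ⁅L, L⁆)
    (ne : θ.1 n ≠ θ.1 1) : inertia N θ.1 ⊔ L = ⊤ := by
  obtain ⟨χ, h1, h2, -⟩ := ov θ hn ne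
  exact index_eq_one.1 (Nat.eq_one_of_dvd_coprimes (h.cop _ ⟨χ, h1, rfl⟩)
    ((index_dvd_of_le le_sup_left).trans ((dvd_mul_right _ _).trans h2)) (index_dvd_of_le le_sup_right))

omit [L.Normal] in
theorem supL {N : Subgroup G} [N.Normal] (le : N ≤ ⁅L, L⁆) {μ : N →* ℂˣ} (ne : μ ≠ 1) :
    St (dual N) μ ⊔ L = ⊤ := by
  obtain ⟨n, hn⟩ := DFunLike.ne_iff.1 ne
  rw [← inertia_lin]
  exact h.sup (lin μ) (le n.2) fun e => hn (Units.ext (e.trans (by simp [lin])))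

theorem dL {ψ : IrrCharacter L} (ne : charDegree ψ.1 ≠ 1) : DD L (charDegree ψ.1) := by
  obtain ⟨χ, ⟨e, h1, h2⟩, h3, -⟩ := exists_over L ψ
  have := mt h3.2 ne
  rw [Nat.eq_one_of_dvd_coprimes (h.cop _ ⟨χ, this, rfl⟩) (h1 ▸ dvd_mul_right _ _) h2, one_mul] at h1
  exact ⟨χ, this, h1⟩

theorem exL (hd : DD L d) : ∃ ψ : IrrCharacter L, charDegree ψ.1 ≠ 1 ∧ charDegree ψ.1 = d := by
  obtain ⟨χ, h0, rfl⟩ := hd
  obtain ⟨ψ, ⟨e, h1, h2⟩, h3, -⟩ := exists_under L χ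
  rw [Nat.eq_one_of_dvd_coprimes (h.cop _ ⟨χ, h0, rfl⟩) (h1 ▸ dvd_mul_right _ _) h2, one_mul] at h1
  exact ⟨ψ, mt h3.1 h0, h1.symm⟩

omit h [L.Normal] in
theorem _root_.Cfsg.Agent.Palfy.exists_ne_of_deg {N : Subgroup G} {ψ : IrrCharacter N}
    (ne : charDegree ψ.1 ≠ 1) : ∃ n : N, n.1 ∈ ⁅N, N⁆ ∧ ψ.1 n ≠ ψ.1 1 := by
  obtain ⟨n, h1, h2⟩ := SetLike.not_le_iff_exists.1 (mt (commutator_le_charKer_iff ψ).1 ne)
  exact ⟨n, map_subtype_commutator N ▸ ⟨n, h1, rfl⟩, mt (mem_charKer_irr ψ).2 h2⟩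

theorem invL {ψ : IrrCharacter L} (ne : charDegree ψ.1 ≠ 1) (g : G) : g ∈ inertia L ψ.1 := by
  obtain ⟨n, h1, h2⟩ := exists_ne_of_deg ne
  have := h.sup ψ h1 h2
  rw [sup_eq_left.2 (le_inertia' L ψ)] at this
  exact this.ge (mem_top g)

theorem vanish {x : L} (hx : x.1 ∉ CC L) (ψ : IrrCharacter L) (ne : charDegree ψ.1 ≠ 1) : ψ.1 x = 0 := by
  by_contra n
  refine hx (mem_CC.2 fun g => ?_)
  rw [← map_subtype_commutator]
  refine ⟨⟨_, Normal.conj_mem inferInstance _ x.2 g⟩ * x⁻¹, mem_commutator_of_forall_hom fun μ => ?_, rfl⟩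
  have e := (mem_inertia' _).1 (h.invL (ψ := ⟨_, ψ.2.mul_linear μ⟩) (deg_tw ne μ) g) x
  simp only [(mem_inertia' _).1 (h.invL ne g) x] at e
  rw [map_mul, map_inv, Units.ext (mul_left_cancel₀ n e), mul_inv_cancel]

theorem fpf (hL : x ∈ L) (hx : x ∉ CC L) {m : G} (hm : m ∈ ⁅L, L⁆) (ha : x ^ a = 1)
    (hb : m ^ b = 1) (c : a.Coprime b) (e : x * m = m * x) : m = 1 :=
  (cam_of_vanish (h.vanish (x := ⟨x, hL⟩) hx)).fpf hm ha hb c e

theorem rdvd (hr : r.Prime) (hL : x ∈ L) (hx : x ∉ CC L) (ha : x ^ r ^ k = 1) (hd : DD L d) : r ∣ d := by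
  obtain ⟨ψ, h1, rfl⟩ := h.exL hd
  by_contra c
  exact ψ.2.isCharacter.ne_zero_of_not_dvd hr (coe_charDegree_irr ψ).symm c (k := k)
    (g := ⟨x, hL⟩) (Subtype.ext ha) (h.vanish hx ψ h1)

omit h in
theorem _root_.Cfsg.Agent.Palfy.exists_x (nc : ¬ L ≤ CC L) :
    ∃ r k x, r.Prime ∧ x ∈ L ∧ x ∉ CC L ∧ x ^ r ^ k = 1 := by
  obtain ⟨r, hr, hd⟩ := Nat.exists_prime_and_dvd (mt relIndex_eq_one.1 nc)
  have := Fact.mk hr
  obtain ⟨x, h1, h2⟩ := SetLike.not_le_iff_exists.1 (prime_dvd_index_iff.1 hd default)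
  obtain ⟨k, hk⟩ := (default : Sylow r L).2 ⟨x, h1⟩
  exact ⟨r, k, x, hr, x.2, h2, congrArg (fun y => (y.1 : G)) hk⟩

end Hy

end Cfsg.Agent.Palfy
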