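import Cfsg.Agent.Palfy.ND2
import Cfsg.Agent.Solv.Misc1

/-! A normal subgroup all of whose nonlinear characters are invariant: the fixed-point-free case. -/

set_option autoImplicit false

namespace Cfsg.Agent.Palfy

open Subgroup Cfsg.Agent.Char
open scoped commutatorElement

variable {G : Type*} [Group G] [Finite G] {L : Subgroup G} {a b d r k : ℕ} {x : G}

theorem nq_of {H V : Type*} [Group H] [Finite H] [Group V] {φ : H →* MulAut V} {t : ℕ} [Fact t.Prime]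
    {A : Subgroup H} [A.Normal] (ab : commutator H ≤ A) (ht : ¬ t ∣ Nat.card A) {v : V}
    (h1 : St φ v ⊔ A = ⊤) (h2 : St φ v ⊓ A ≤ center H) : Nq φ t v := by
  obtain ⟨Q, hQ⟩ : ∃ Q : Sylow t H, (Q : Subgroup H) ≤ St φ v := by
    by_contra c
    exact ht ((prime_dvd_index_iff.2 (not_exists.1 c)).trans
      (relIndex_eq_index h1 ▸ relIndex_dvd_card _ _))
  refine ⟨Q, hQ, fun R hR => Sylow.ext (R.3 Q.2 ?_).symm⟩
  have : (R : Subgroup H) ≤ normalizer (Q : Set H) := fun s hs => centralizer_le_normalizer _ fun a ha => by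
    obtain ⟨j, hj⟩ := Q.2.exists_card_eq
    have m : ⁅a, s⁆ ∈ St φ v ⊓ A := mem_inf.2 ⟨mul_mem (mul_mem (mul_mem (hQ ha) (hR hs))
      (inv_mem (hQ ha))) (inv_mem (hR hs)), ab (commutator_mem_commutator (mem_top a) (mem_top s))⟩
    exact comm_of_cop (Bad.pw ha) (Bad.pw m.2) (hj ▸ Nat.Coprime.pow_right _
      ((Nat.Prime.coprime_iff_not_dvd Fact.out).2 ht).symm) (mem_center_iff.1 (h2 m) a)
  exact (le_inf le_rfl this).trans ((R.2.inf_normalizer_sylow Q).le.trans inf_le_right)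

theorem dual_pow' {p : ℕ} [Fact p.Prime] {N : Type*} [Group N] [Finite N] (pN : IsPGroup p N)
    (U : Subgroup (N →* ℂˣ)) : ∃ k, Nat.card U = p ^ k :=
  IsPGroup.exists_card_eq fun μ => by
    obtain ⟨k, e⟩ := pN.exists_card_eq
    exact ⟨k, Subtype.ext (MonoidHom.ext fun n => by
      rw [SubgroupClass.coe_pow, MonoidHom.pow_apply, ← map_pow, ← e, pow_card_eq_one', map_one]; rfl)⟩

theorem one_lt_dual [Group.IsSolvable G] {N : Subgroup G} (ne : N ≠ ⊥) : 1 < Nat.card (N →* ℂˣ) := by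
  rw [card_dual']
  exact Nat.one_lt_iff_ne_zero_and_ne_one.2 ⟨index_ne_zero_of_finite, mt relIndex_eq_one.1
    (Group.IsSolvable.commutator_lt_of_ne_bot ne).not_ge⟩

theorem St_le_of {H V : Type*} [Group H] [Group V] (φ : H →* MulAut V) (L : Subgroup H)
    (nK : ∀ μ, μ ≠ 1 → (St φ μ ⊓ L).Normal)
    (k1 : ∀ μ ν, μ ≠ 1 → ν ≠ 1 → St φ μ ⊓ L ≤ St φ ν → St φ μ ⊓ L = St φ ν ⊓ L) {μ ν : V}
    (hμ : μ ≠ 1) (hν : ν ≠ 1) : St φ μ ⊓ L ≤ St φ ν := fun g hg => by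
  have := nK μ hμ
  have := nK ν hν
  let W := fun μ => Fx φ (St φ μ ⊓ L)
  have w : ∀ μ, μ ∈ W μ := fun μ => mem_Fx.2 inf_le_left
  by_cases c : ∃ ξ, ξ ≠ 1 ∧ ξ ∈ W μ ∧ ξ ∈ W ν
  · obtain ⟨ξ, h1, h2, h3⟩ := c
    exact (((k1 _ _ hμ h1 h2).trans (k1 _ _ hν h1 h3).symm).le hg).1
  simp only [not_exists, not_and'] at c
  have c : ∀ ξ ∈ W μ, ξ ∈ W ν → ξ = 1 := fun ξ a b => not_not.1 (c ξ ⟨a, b⟩)
  have n : μ * ν ≠ 1 := fun e => hν (c ν (eq_inv_of_mul_eq_one_right e ▸ inv_mem (w μ)) (w ν))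
  have k2 : ∀ g ∈ St φ (μ * ν), g ∈ St φ μ ∧ g ∈ St φ ν := fun g hg => by
    have e : μ⁻¹ * φ g μ = ν * (φ g ν)⁻¹ := by
      rw [inv_mul_eq_iff_eq_mul, ← mul_assoc, eq_mul_inv_iff_mul_eq, ← map_mul]; exact hg
    have := c _ (mul_mem (inv_mem (w μ)) (inv_Fx _ _ g _ (w μ)))
      (e ▸ mul_mem (w ν) (inv_mem (inv_Fx _ _ g _ (w ν))))
    exact ⟨(inv_mul_eq_one.1 this).symm, (mul_inv_eq_one.1 (e ▸ this)).symm⟩
  exact (k2 g ((k1 _ _ n hμ fun g hg => (k2 g hg.1).1).ge hg).1).2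

variable [L.Normal]

/-- the elements of `L` fixing all linear characters of `L'` -/
def TL (L : Subgroup G) [L.Normal] : Subgroup G := L ⊓ (dual ⁅L, L⁆).ker

instance : (TL L).Normal := by unfold TL; infer_instance

omit [Finite G] in
theorem TL_le (μ : (⁅L, L⁆ : Subgroup G) →* ℂˣ) : TL L ≤ St (dual ⁅L, L⁆) μ := fun _ hg =>
  mem_St.2 (by rw [show dual ⁅L, L⁆ _ = 1 from hg.2]; rfl)

omit [Finite G] in
theorem le_TL : ⁅L, L⁆ ≤ TL L := fun _ hg =>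
  ⟨commutator_le_self L hg, MulEquiv.ext fun μ => self_le_St _ μ hg⟩

namespace Hy

variable (h : Hy L) (hL : x ∈ L) (fp : ∀ m ∈ ⁅L, L⁆, x * m = m * x → m = 1)
include h

theorem nK {μ : (⁅L, L⁆ : Subgroup G) →* ℂˣ} (hμ : μ ≠ 1) : (St (dual ⁅L, L⁆) μ ⊓ L).Normal :=
  normal_inf (h.supL le_rfl hμ) (self_le_St _ μ)

include hL fp

theorem kerK {μ : (⁅L, L⁆ : Subgroup G) →* ℂˣ} (hμ : μ ≠ 1) {c : (⁅L, L⁆ : Subgroup G)}
    (hc : c.1 ∈ ⁅St (dual ⁅L, L⁆) μ ⊓ L, St (dual ⁅L, L⁆) μ ⊓ L⁆) : μ c = 1 :=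
  have := h.nK hμ
  have le := commutator_mono (inf_le_right : St (dual ⁅L, L⁆) μ ⊓ L ≤ L) inf_le_right
  DFunLike.congr_fun (eq_one_of_fpf (fun m hm => fp m (le hm)) (St_comm_comm le inf_le_left
    fun _ ha => commutator_mem_commutator hL ha.2)) ⟨c, hc⟩

theorem ddK {μ : (⁅L, L⁆ : Subgroup G) →* ℂˣ} (hμ : μ ≠ 1) :
    DD L ((St (dual ⁅L, L⁆) μ ⊓ L).relIndex L) := by
  have := h.nK hμ
  obtain ⟨n, hn⟩ := DFunLike.ne_iff.1 hμ
  obtain ⟨χ, h1, h2, h3⟩ := ov (lin μ) n.2 fun e => hn (Units.ext (e.trans (by simp [lin])))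
  obtain ⟨θ, ⟨e, h4, h5⟩, h6, -⟩ := exists_under (St (dual ⁅L, L⁆) μ ⊓ L) χ
  rw [h6.2 (h3 _ inferInstance (commutator_mono inf_le_right inf_le_right) fun c hc =>
    (mem_charKer_irr _).2 (by simp [lin, h.kerK hL fp hμ hc])), mul_one] at h4
  rw [deg_lin, mul_one, inertia_lin, ← relIndex_eq_index (h.supL le_rfl hμ), ← inf_relIndex_right] at h2
  rw [← relIndex_mul_index inf_le_right, ← h4] at h5
  exact ⟨χ, h1, Nat.dvd_antisymm ((h.cop _ ⟨χ, h1, rfl⟩).dvd_of_dvd_mul_right h5) h2⟩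

theorem eqK {μ : (⁅L, L⁆ : Subgroup G) →* ℂˣ} (hμ : μ ≠ 1) : St (dual ⁅L, L⁆) μ ⊓ L = TL L := by
  have k1 : ∀ {μ ν : (⁅L, L⁆ : Subgroup G) →* ℂˣ}, μ ≠ 1 → ν ≠ 1 →
      St (dual ⁅L, L⁆) μ ⊓ L ≤ St (dual ⁅L, L⁆) ν →
      St (dual ⁅L, L⁆) μ ⊓ L = St (dual ⁅L, L⁆) ν ⊓ L := fun hμ hν le => by
    have le := le_inf le inf_le_right
    have e := h.nd _ _ (h.ddK hL fp hν) (h.ddK hL fp hμ) (relIndex_dvd_of_le_left L le)
    rw [← relIndex_mul_relIndex _ _ _ le inf_le_right, eq_comm,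
      mul_eq_right₀ (h.ddK hL fp hν).pos.ne', relIndex_eq_one] at e
    exact le_antisymm le e
  refine le_antisymm (fun g hg => ⟨hg.2, MulEquiv.ext fun ν => ?_⟩) (le_inf (TL_le μ) inf_le_left)
  by_cases hν : ν = 1
  · exact hν ▸ map_one _
  exact St_le_of (V := (⁅L, L⁆ : Subgroup G) →* ℂˣ) _ L (fun _ => h.nK) @k1 hμ hν hg

theorem ddT [Group.IsSolvable G] (ne : ⁅L, L⁆ ≠ ⊥) : DD L ((TL L).relIndex L) := by
  obtain ⟨μ, hμ⟩ := @exists_ne _ (Finite.one_lt_card_iff_nontrivial.1 (one_lt_dual ne)) 1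
  exact h.eqK hL fp hμ ▸ h.ddK hL fp hμ

theorem abel [Group.IsSolvable G] (e : ⁅⁅L, L⁆, ⁅L, L⁆⁆ = ⊥) (hd : DD L d) :
    d = (TL L).relIndex L := by
  obtain ⟨χ, h1, rfl⟩ := id hd
  have := χ.2.deg_dvd_index_of_comm (coe_charDegree_irr χ).symm (TL L) fun a ha b hb =>
    commutatorElement_eq_one_iff_mul_comm.1 (mem_bot.1 (e.le (by
      rw [← map_subtype_commutator]
      refine ⟨⟨_, commutator_mem_commutator ha.1 hb.1⟩, mem_commutator_of_forall_hom fun μ => ?_, rfl⟩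
      by_cases c : μ = 1
      · rw [c]; rfl
      exact h.kerK hL fp c (h.eqK hL fp c ▸ commutator_mem_commutator ha hb))))
  rw [← relIndex_mul_index (H := TL L) (K := L) inf_le_left] at this
  exact h.nd _ _ hd (h.ddT hL fp fun e => h1 (e ▸ bot_le)) ((h.cop _ hd).dvd_of_dvd_mul_right this)

theorem exy [Group.IsSolvable G] {θ : IrrCharacter (⁅L, L⁆ : Subgroup G)} (hθ : charDegree θ.1 ≠ 1) :
    ∃ y ∈ inertia ⁅L, L⁆ θ.1 ⊓ L, y ∉ TL L := by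
  refine SetLike.not_le_iff_exists.1 fun c => ?_
  obtain ⟨n, h1, h2⟩ := exists_ne_of_deg hθ
  obtain ⟨χ, h3, h4, -⟩ := ov θ n.2 h2
  have D := h.ddT hL fp fun e => h3 (e ▸ bot_le)
  rw [← relIndex_eq_index (h.sup θ n.2 h2), ← inf_relIndex_right] at h4
  have h5 := (mul_dvd_mul_right (relIndex_dvd_of_le_left L c) _).trans h4
  rw [← h.nd _ _ D ⟨χ, h3, rfl⟩ ((dvd_mul_right _ _).trans h5)] at h5
  exact hθ (Nat.dvd_one.1 (Nat.dvd_of_mul_dvd_mul_left D.pos (by rwa [mul_one])))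

theorem uniq {θ : (⁅L, L⁆ : Subgroup G) → ℂ} {ν : (⁅L, L⁆ : Subgroup G) →* ℂˣ} {y : G} (hy : y ∈ L)
    (ny : y ∉ TL L) (h1 : y ∈ inertia ⁅L, L⁆ θ) (h2 : y ∈ inertia ⁅L, L⁆ fun n => θ n * ν n) (n) :
    θ n * ν n = θ n := by
  have inj : Function.Injective (del (U := (⁅L, L⁆ : Subgroup G) →* ℂˣ) (dual ⁅L, L⁆) y⁻¹) :=
    (injective_iff_map_eq_one _).2 fun u hu => by_contra fun c =>
      ny (inv_mem_iff.1 ((h.eqK hL fp c).le (mem_inf.2 ⟨mul_inv_eq_one.1 hu, inv_mem hy⟩)))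
  have ap : ∀ (u : (⁅L, L⁆ : Subgroup G) →* ℂˣ) n, (del (U := (⁅L, L⁆ : Subgroup G) →* ℂˣ)
      (dual ⁅L, L⁆) y⁻¹ u n : ℂ) = u ⟨y * n * y⁻¹, Normal.conj_mem inferInstance _ n.2 y⟩ * (u n : ℂ)⁻¹ :=
    fun u n => by simp only [del_apply, MonoidHom.mul_apply, MonoidHom.inv_apply, dual_apply, inv_inv,
      Units.val_mul, Units.val_inv_eq_inv_val]
  let U := {u : (⁅L, L⁆ : Subgroup G) →* ℂˣ // ∀ n, θ n ≠ 0 → u n = 1}
  have k : ∀ u : (⁅L, L⁆ : Subgroup G) →* ℂˣ, (∀ n, θ n ≠ 0 →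
      u ⟨y * n * y⁻¹, Normal.conj_mem inferInstance _ n.2 y⟩ = u n) → ∀ n, θ n ≠ 0 →
      del (U := (⁅L, L⁆ : Subgroup G) →* ℂˣ) (dual ⁅L, L⁆) y⁻¹ u n = 1 := fun u hu n hn =>
    Units.ext (by rw [ap, hu n hn, mul_inv_cancel₀ (Units.ne_zero _)]; rfl)
  obtain ⟨u, hu⟩ := Finite.surjective_of_injective (f := fun u : U => (⟨_, k u.1 fun n hn => by
    rw [u.2 n hn, u.2 _ ((mem_inertia' _).1 h1 n ▸ hn)]⟩ : U))
    (fun u v e => Subtype.ext (inj (congrArg Subtype.val e))) ⟨_, k ν fun n hn => by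
      have := (mem_inertia' _).1 h2 n
      rw [(mem_inertia' _).1 h1 n] at this
      exact Units.ext (mul_left_cancel₀ hn this)⟩
  by_cases c : θ n = 0
  · rw [c, zero_mul]
  · rw [← inj (congrArg Subtype.val hu), u.2 n c, Units.val_one, mul_one]

theorem cam [Group.IsSolvable G] {a : (⁅L, L⁆ : Subgroup G)} (ha : a.1 ∉ ⁅⁅L, L⁆, ⁅L, L⁆⁆) :
    Cam _ a := cam_of_vanish fun θ hθ => by_contra fun c => ha (by
  rw [← map_subtype_commutator]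
  refine ⟨a, mem_commutator_of_forall_hom fun ν => ?_, rfl⟩
  obtain ⟨y, h1, h2⟩ := h.exy hL fp hθ
  obtain ⟨z, h3, h4⟩ := h.exy hL fp (θ := ⟨_, θ.2.mul_linear ν⟩) (deg_tw hθ ν)
  let ξ := ν * (dual _ z⁻¹ ν)⁻¹
  have e : ∀ n, θ.1 n * ξ n = θ.1 ⟨z * n * z⁻¹, Normal.conj_mem inferInstance _ n.2 z⟩ := fun n => by
    have := (mem_inertia' _).1 h3.1 n
    simp only [ξ, MonoidHom.mul_apply, MonoidHom.inv_apply, dual_apply, inv_inv, Units.val_mul,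
      Units.val_inv_eq_inv_val] at this ⊢
    rw [← mul_assoc, ← this, mul_inv_cancel_right₀ (Units.ne_zero _)]
  have m : z * y * z⁻¹ ∈ inertia ⁅L, L⁆ θ.1 := by
    have := mul_mem (le_inertia' _ θ (commutator_mem_commutator h3.2 h1.2)) h1.1
    simpa [commutatorElement_def] using this
  have h5 : z ∈ inertia ⁅L, L⁆ θ.1 := (mem_inertia' _).2 fun n => by
    rw [← e]
    refine h.uniq hL fp h1.2 h2 h1.1 ((mem_inertia' _).2 fun n => ?_) n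
    rw [e, e, ← (mem_inertia' _).1 m ⟨z * n * z⁻¹, _⟩]
    exact congrArg _ (Subtype.ext (by simp [mul_assoc]))
  exact Units.ext ((mul_eq_left₀ c).1 (h.uniq hL fp h3.2 h4 h5 h3.1 a)))

end Hy

end Cfsg.Agent.Palfy
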