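import Cfsg.Agent.Palfy.ND3

/-! A normal subgroup all of whose nonlinear characters are invariant has only one such degree. -/

set_option autoImplicit false

namespace Cfsg.Agent.Palfy.Hy

open Subgroup Cfsg.Agent.Char
open scoped commutatorElement

variable {G : Type*} [Group G] [Finite G] [Group.IsSolvable G] {L : Subgroup G} [L.Normal] {x : G}
  {a b : ℕ} (h : Hy L)
include h

theorem cenN (hL : x ∈ L) (fp : ∀ m ∈ ⁅L, L⁆, x * m = m * x → m = 1) (hx : x ∈ ⁅(⊤ : Subgroup G), L⁆)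
    (ne : ⁅⁅L, L⁆, ⁅L, L⁆⁆ ≠ ⊥)
    (mn : ∀ K : Subgroup G, K.Normal → K ≤ ⁅⁅L, L⁆, ⁅L, L⁆⁆ → K = ⊥ ∨ K = ⁅⁅L, L⁆, ⁅L, L⁆⁆) :
    ⁅L, L⁆ ≤ centralizer (⁅⁅L, L⁆, ⁅L, L⁆⁆ : Subgroup G) ∧
      ∃ p, p.Prime ∧ IsPGroup p (⁅L, L⁆ : Subgroup G) := by
  have cam := @h.cam _ _ _ _ _ _ hL fp _
  generalize hP : ⁅L, L⁆ = P at *
  have : P.Normal := hP ▸ inferInstance
  obtain ⟨cm, p, hp, pw⟩ := Grp.minNormal_elementaryAbelian _ ne mn
  have := Fact.mk hp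
  have pN : IsPGroup p (⁅P, P⁆ : Subgroup G) := fun v => ⟨1, Subtype.ext (by simpa using pw v v.2)⟩
  have pel : ∀ a ∈ P, ∀ v ∈ ⁅P, P⁆, v ≠ 1 → a * v = v * a → ∃ j, a ^ p ^ j = 1 := fun a ha v hv n e => by
    obtain ⟨j, m, hm, o⟩ := Nat.exists_eq_pow_mul_and_not_dvd (orderOf_pos a).ne' p hp.ne_one
    by_cases c : a ^ p ^ j ∈ ⁅P, P⁆
    · exact ⟨j + 1, by rw [pow_succ, pow_mul, pw _ c]⟩
    exact absurd ((cam (a := ⟨_, pow_mem ha _⟩) c).fpf hv (a := m)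
      (by rw [← pow_mul, ← o, pow_orderOf_eq_one]) (pw v hv) (hp.coprime_iff_not_dvd.2 hm).symm
      (Commute.pow_left e _)) n
  have oc : pCore p G ≤ centralizer (⁅P, P⁆ : Subgroup G) := by
    obtain ⟨z, h1, h2, h3⟩ := exists_cent inferInstance pN (Grp.pCore_isPGroup p G) ne
    exact le_centralizer_iff.1 (inf_eq_left.1 ((mn _ inferInstance inf_le_left).resolve_left fun e =>
      h2 (mem_bot.1 (e.le ⟨h1, h3⟩))))
  have pc : ∀ a ∈ P, ∀ j, a ^ p ^ j = 1 → a ∈ centralizer (⁅P, P⁆ : Subgroup G) := fun a ha j e =>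
    oc (Grp.map_pCore_le_of_normal p P ⟨⟨a, ha⟩, Grp.le_pCore (N := (zpowers a ⊔ ⁅P, P⁆).subgroupOf P)
      ⟨fun n hn g => by
        have := mul_mem (mem_sup_right (commutator_mem_commutator g.2 n.2)) hn
        simpa [commutatorElement_def, mem_subgroupOf] using this⟩
      (IsPGroup.comap_subtype (IsPGroup.to_sup_of_normal_right (by
        rintro ⟨_, i, rfl⟩
        exact ⟨j, Subtype.ext (by
          change (a ^ i) ^ p ^ j = 1
          rw [← zpow_natCast, ← zpow_mul, mul_comm, zpow_mul, zpow_natCast, e, one_zpow])⟩) pN))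
      (mem_sup_left (mem_zpowers a)), rfl⟩)
  let φ : G →* MulAut (⁅P, P⁆ : Subgroup G) := MulAut.conjNormal
  have k : ∀ g, φ g = 1 ↔ g ∈ centralizer (⁅P, P⁆ : Subgroup G) := fun g =>
    ⟨fun e v hv => by
      have := congrArg Subtype.val (DFunLike.congr_fun e ⟨v, hv⟩)
      exact (mul_inv_eq_iff_eq_mul.1 this).symm,
      fun e => MulEquiv.ext fun v => Subtype.ext (mul_inv_eq_iff_eq_mul.2 (e v v.2).symm)⟩
  have := (nontrivial_iff_ne_bot _).2 ne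
  have cyc : IsCyclic (P.map φ) := isCyclic_of_fix (by
    rintro _ ⟨a, ha, rfl⟩ _ ⟨b, hb, rfl⟩
    rw [← commutatorElement_eq_one_iff_mul_comm, ← map_commutatorElement, k]
    exact le_centralizer _ (commutator_mem_commutator ha hb)) (by
    rintro _ ⟨a, ha, rfl⟩ v e
    refine or_iff_not_imp_right.2 fun n => ?_
    obtain ⟨j, hj⟩ := pel a ha v v.2 (fun e => n (Subtype.ext e))
      (mul_inv_eq_iff_eq_mul.1 (congrArg Subtype.val e))
    exact (k a).2 (pc a ha j hj))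
  have c := Solv.commutator_le_centralizer_of_isCyclic' (K := (⊤ : Subgroup G).map φ) (N := P.map φ)
    ((map_mono le_normalizer_of_normal).trans (le_normalizer_map φ))
  rw [← map_commutator] at c
  have cen : P ≤ centralizer (⁅P, P⁆ : Subgroup G) := fun a ha => by
    obtain ⟨b, hb, rfl⟩ := surj_of_fpf fp ha
    rw [← k, map_commutatorElement, commutatorElement_eq_one_iff_mul_comm]
    exact (c ⟨x, commutator_mono le_rfl le_top hx, rfl⟩ _ ⟨b, hb, rfl⟩).symm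
  obtain ⟨v, hv⟩ := exists_ne (1 : (⁅P, P⁆ : Subgroup G))
  exact ⟨cen, p, hp, fun a => (pel a a.2 v v.2 (fun e => hv (Subtype.ext e))
    (cen a.2 v v.2).symm).imp fun _ => Subtype.ext⟩

theorem beta (hL : x ∈ L) (fp : ∀ m ∈ ⁅L, L⁆, x * m = m * x → m = 1) (hx : x ∈ ⁅(⊤ : Subgroup G), L⁆)
    (ne : ⁅⁅L, L⁆, ⁅L, L⁆⁆ ≠ ⊥)
    (mn : ∀ K : Subgroup G, K.Normal → K ≤ ⁅⁅L, L⁆, ⁅L, L⁆⁆ → K = ⊥ ∨ K = ⁅⁅L, L⁆, ⁅L, L⁆⁆) :
    False := by
  obtain ⟨cen, p, hp, pP⟩ := h.cenN hL fp hx ne mn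
  have := Fact.mk hp
  have lN := commutator_le_self ⁅L, L⁆
  have neP : ⁅L, L⁆ ≠ ⊥ := fun e => ne (eq_bot_iff.2 (lN.trans e.le))
  have hP := fun μ : (⁅⁅L, L⁆, ⁅L, L⁆⁆ : Subgroup G) →* ℂˣ => cen.trans (cent_le_St _ μ)
  have hT : ∀ μ : (⁅⁅L, L⁆, ⁅L, L⁆⁆ : Subgroup G) →* ℂˣ, TL L ≤ St (dual _) μ := fun μ t ht =>
    St_comm_comm le_rfl (hP μ) fun a ha => comm_mem_of_St (fun ν => TL_le ν ht) ha
  have s := QuotientGroup.mk'_surjective (TL L)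
  have kL : (QuotientGroup.mk' (TL L)).ker ≤ L := (QuotientGroup.ker_mk' _).le.trans inf_le_left
  set A := L.map (QuotientGroup.mk' (TL L)) with hA
  have : A.Normal := Normal.map inferInstance _ s
  have ab := (h.map s kL).ab
  have co : (Nat.card A).Coprime L.index := relIndex_mk (TL L) L ▸ h.cop _ (h.ddT hL fp neP)
  have cA : A ≤ centralizer A := by
    rintro _ ⟨a, ha, rfl⟩ _ ⟨b, hb, rfl⟩
    exact mk_comm.1 (le_TL (commutator_mem_commutator hb ha))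
  have st1 : ∀ μ : (⁅L, L⁆ : Subgroup G) →* ℂˣ, μ ≠ 1 → St (qdual _ _ TL_le) μ ⊓ A ≤ ⊥ := by
    rintro μ hμ _ ⟨h1, l, hl, rfl⟩
    exact (QuotientGroup.eq_one_iff l).2 ((h.eqK hL fp hμ).le ⟨h1, hl⟩)
  obtain ⟨i, hi⟩ := dual_pow' pP ⊤
  have i1 := one_lt_dual neP
  rw [← card_top] at i1
  have pn : ¬ p ∣ Nat.card A := fun c => by
    obtain ⟨a, ha⟩ := exists_prime_orderOf_dvd_card' p c
    have := card_modEq_one (U := (⁅L, L⁆ : Subgroup G) →* ℂˣ) (ψ := qdual _ _ TL_le) (f := a.1) hp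
      (congrArg Subtype.val (ha ▸ pow_orderOf_eq_one a)) (W := ⊤) (fun _ _ => mem_top _) fun w _ e =>
        by_contra fun n => hp.ne_one (ha ▸ orderOf_eq_one_iff.2 (Subtype.ext (st1 w n ⟨e, a.2⟩)))
    rw [hi] at this i1
    exact hp.ne_one (Nat.dvd_one.1 ((Nat.ModEq.dvd_iff this dvd_rfl).1
      (dvd_pow_self p (by rintro rfl; simp at i1))))
  have st2 : ∀ μ : (⁅⁅L, L⁆, ⁅L, L⁆⁆ : Subgroup G) →* ℂˣ, μ ≠ 1 →
      St (qdual _ _ hT) μ ⊓ A ≤ center _ := by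
    rintro μ hμ _ ⟨h1, l, hl, rfl⟩
    refine mem_center_iff.2 fun g => ?_
    obtain ⟨g, rfl⟩ := s g
    have := normal_inf (K := L) (h.supL lN hμ) (hP μ)
    have y1 : ⁅g, l⁆ ∈ St (dual _) μ ⊓ L := cm_mem g ⟨h1, hl⟩
    obtain ⟨j, m, hm, o⟩ := Nat.exists_eq_pow_mul_and_not_dvd (orderOf_pos ⁅g, l⁆).ne' p hp.ne_one
    obtain ⟨u, hu⟩ := pP.exists_card_eq
    have y2 : ⁅g, l⁆ ^ p ^ j ∈ CC L := by_contra fun c => hμ (eq_one_of_fpf (fun v hv =>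
      h.fpf (pow_mem y1.2 _) c (lN hv) (a := m) (by rw [← pow_mul, ← o, pow_orderOf_eq_one])
        (Bad.pw (lN hv)) (hu ▸ (hp.coprime_iff_not_dvd.2 hm).symm.pow_right u)) (pow_mem y1.1 _))
    have y3 : ⁅QuotientGroup.mk' (TL L) g, QuotientGroup.mk' (TL L) l⁆ ^ Nat.card A = 1 :=
      Bad.pw (cm_mem _ ⟨l, hl, rfl⟩)
    refine comm_of_cop' (n := L.index) ?_ y3 co (mem_center_iff.1 (mem_of_pows
      ((hp.coprime_iff_not_dvd.2 pn).pow_left j) (mem_center_iff.2 fun w => ?_) (y3 ▸ one_mem _)) _)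
    · exact cA ⟨l, hl, rfl⟩ _ ⟨_, pow_index_mem L g, map_pow ..⟩
    · obtain ⟨w, rfl⟩ := s w
      rw [← map_commutatorElement, ← map_pow]
      exact mk_comm.1 (le_TL (mem_CC.1 y2 w))
  obtain ⟨t, ht, td⟩ := Nat.exists_prime_and_dvd (n := (centralizer (A : Set (G ⧸ TL L))).index) fun e => by
    have : x ∈ TL L := commutator_le.2 (fun g _ l hl =>
      mk_comm.2 ((index_eq_one.1 e).ge (mem_top _) _ ⟨l, hl, rfl⟩).symm) hx
    obtain ⟨μ, hμ⟩ := @exists_ne _ (Finite.one_lt_card_iff_nontrivial.1 (one_lt_dual neP)) 1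
    exact hμ (eq_one_of_fpf fp (TL_le μ this))
  have := Fact.mk ht
  have tA : ¬ t ∣ Nat.card A := fun c => ht.ne_one (Nat.eq_one_of_dvd_coprimes co c
    (index_map_eq L s kL ▸ td.trans (index_dvd_of_le cA)))
  obtain ⟨S⟩ : Nonempty (Sylow t (G ⧸ TL L)) := inferInstance
  have su : ∀ {N : Subgroup G} [N.Normal] (le : N ≤ ⁅L, L⁆) (hN : ∀ μ : N →* ℂˣ, TL L ≤ St (dual N) μ)
      (μ : N →* ℂˣ), μ ≠ 1 → St (qdual _ _ hN) μ ⊔ A = ⊤ := fun le hN μ hμ => by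
    rw [St_qdual, ← Subgroup.map_sup, h.supL le hμ, map_top_of_surjective _ s]
  have e1 := card_nq (V := (⁅L, L⁆ : Subgroup G) →* ℂˣ) (fun μ hμ => nq_of ab tA (su le_rfl TL_le μ hμ)
    ((st1 μ hμ).trans bot_le)) S
  have e2 := card_nq (V := (⁅⁅L, L⁆, ⁅L, L⁆⁆ : Subgroup G) →* ℂˣ) (fun μ hμ => nq_of ab tA
    (su lN hT μ hμ) (st2 μ hμ)) S
  obtain ⟨j, hj⟩ := dual_pow' (pP.to_le lN) ⊤
  obtain ⟨i', hi'⟩ := dual_pow' pP (Fx (qdual _ _ TL_le) S.1)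
  obtain ⟨j', hj'⟩ := dual_pow' (pP.to_le lN) (Fx (qdual _ _ hT) S.1)
  have j1 := one_lt_dual ne
  rw [card_top] at hi hj i1
  rw [hi, hi'] at e1
  rw [hj, hj'] at e2
  have e := pow_eq_of_count hp (Finite.one_lt_card_iff_nontrivial.2 (not_subsingleton_iff_nontrivial.1
    fun _ => prime_dvd_index_iff.1 td S (by
      have := Sylow.normal_of_subsingleton S
      exact commutator_eq_bot_iff_le_centralizer.1 (eq_bot_iff.2 ((commutator_le_inf _ _).trans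
        (Grp.inf_eq_bot_of_isPGroup_of_coprime S.2 (ht.coprime_iff_not_dvd.2 tA).symm).le)))))
    (hi ▸ i1) (hj ▸ j1) e1 e2
  rw [← hi, ← hj, card_dual', card_dual fun a b => Subtype.ext (cen (lN b.2) a a.2)] at e
  obtain ⟨a, h1, h2⟩ := SetLike.not_le_iff_exists.1 (Group.IsSolvable.commutator_lt_of_ne_bot neP).not_ge
  refine ((h.cam hL fp (a := ⟨a, h1⟩) h2).card_le.trans_lt (index_strictAnti
    (H := (⁅⁅L, L⁆, ⁅L, L⁆⁆).subgroupOf ⁅L, L⁆) (lt_of_le_not_ge (fun c hc => ?_) fun c => ?_))).ne e.symm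
  · exact mem_centralizer_singleton_iff.2 (Subtype.ext (cen h1 c hc))
  · exact h2 (@c ⟨a, h1⟩ (mem_centralizer_singleton_iff.2 rfl))

omit [Group.IsSolvable G] in
theorem exx {r k : ℕ} (hr : r.Prime) (hL : x ∈ L) (hx : x ∉ CC L) (ha : x ^ r ^ k = 1)
    (c1 : ¬ r ∣ L.index) (c2 : ¬ r ∣ Nat.card (⁅L, L⁆ : Subgroup G)) :
    ∃ y ∈ L, y ∈ ⁅(⊤ : Subgroup G), L⁆ ∧ ∀ m ∈ ⁅L, L⁆, y * m = m * y → m = 1 := by
  obtain ⟨g, hg⟩ := not_forall.1 (mt mem_CC.2 hx)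
  have p1 := cm_pow_mem hL ha g
  have co := (hr.coprime_iff_not_dvd.2 c2).pow_left k
  refine ⟨⁅g, x⁆ ^ Nat.card (⁅L, L⁆ : Subgroup G), pow_mem (cm_mem g hL) _,
    pow_mem (commutator_mem_commutator (mem_top g) hL) _, fun m hm => h.fpf (pow_mem (cm_mem g hL) _)
      (fun c => hg (mk_comm.2 ?_)) hm (by rw [← pow_mul, mul_comm, pow_mul]; exact Bad.pw p1)
      (Bad.pw hm) co⟩
  refine comm_of_cop' (n := L.index) ?_ (m := r ^ k) ?_ ((hr.coprime_iff_not_dvd.2 c1).pow_left k) ?_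
  · exact mk_comm.1 (commutator_mem_commutator (pow_index_mem L g) hL)
  · exact (QuotientGroup.eq_one_iff (⁅g, x⁆ ^ r ^ k)).2 p1
  · exact mk_comm.1 (mem_CC.1 (mem_of_pows co (le_CC p1) c) g)

theorem main (nc : ¬ L ≤ CC L) (ha : DD L a) (hb : DD L b) : a = b := by
  obtain ⟨r, k, x, hr, hL, hx, hk⟩ := exists_x nc
  have := Fact.mk hr
  obtain ⟨M, _, le, rM, pM⟩ := exists_normal_compl L (hasNormalPComplement_of_dvd_charDegree
    fun ψ hψ => h.rdvd hr hL hx hk (h.dL hψ))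
  by_cases c : M ⊓ ⁅L, L⁆ = ⊥
  · obtain ⟨i, rfl⟩ := h.one le pM c ha
    obtain ⟨j, rfl⟩ := h.one le pM c hb
    rcases le_total i j with e | e
    exacts [h.nd _ _ ha hb (pow_dvd_pow r e), (h.nd _ _ hb ha (pow_dvd_pow r e)).symm]
  have l : ⁅L, L⁆ ≤ M := by_contra (h.alpha le rM pM hL hx hk c)
  obtain ⟨y, y1, y2, fp⟩ := h.exx hr hL hx hk (fun e => hr.ne_one (Nat.eq_one_of_dvd_coprimes
    (h.cop _ ha) (h.rdvd hr hL hx hk ha) e)) fun e => rM (e.trans (card_dvd_of_le l))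
  by_cases e : ⁅⁅L, L⁆, ⁅L, L⁆⁆ = ⊥
  · exact (h.abel y1 fp e ha).trans (h.abel y1 fp e hb).symm
  obtain ⟨V, -, v2⟩ := PLocal.ChiefAct.exists_chief_below (bot_lt_iff_ne_bot.2 e)
  have := v2.2.2.1
  have s := QuotientGroup.mk'_surjective V
  have vL : V ≤ ⁅L, L⁆ := v2.1.le.trans (commutator_le_self _)
  have : (L.map (QuotientGroup.mk' V)).Normal := Normal.map inferInstance _ s
  have m := min_map v2
  simp only [map_commutator] at m
  refine ((h.map s ((QuotientGroup.ker_mk' V).le.trans (vL.trans (commutator_le_self L)))).beta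
    (x := (y : G ⧸ V)) ⟨y, y1, rfl⟩ ?_ ?_ ?_ m).elim
  · rw [← map_commutator]
    rintro _ ⟨u, hu, rfl⟩ e
    obtain ⟨v, hv, e⟩ := surj_of_fpf (fun m hm => fp m (vL hm)) (mk_comm.2 e)
    exact (QuotientGroup.eq_one_iff u).2 (inj_of_fpf fp (vL hv) hu e ▸ hv)
  · rw [← map_top_of_surjective _ s, ← map_commutator]
    exact ⟨y, y2, rfl⟩
  · rw [← map_commutator, ← map_commutator, Ne, Subgroup.map_eq_bot_iff, QuotientGroup.ker_mk']
    exact v2.1.not_ge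

end Cfsg.Agent.Palfy.Hy
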